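import Cfsg.Agent.H920.FP.Row
import Cfsg.Agent.LieClassical.HermBasic
import Cfsg.Agent.LieClassical.OmegaReindex
import Cfsg.Agent.LieClassical.OrthFinite

/-!
# S5717: the classical matrix groups as isometry groups (`MRow`)
-/

set_option autoImplicit false

namespace Cfsg.Agent.H375.FP

open Module QuadraticMap Matrix Cfsg Cfsg.Agent.LieClassical.OrthCore Cfsg.Agent.LieClassical.OmegaReindex
  Cfsg.Agent.LieClassical.OrthFinite Cfsg.Agent.LieClassical.HermBasic Cfsg.Agent.H920.FP
open scoped MatrixGroups

section Orth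

variable {ι : Type} [Fintype ι] [DecidableEq ι] {F : Type} [Field F]

/-- the form of a quadratic form -/
def frmQ {V : Type} [AddCommGroup V] [Module F V] (Q : QuadraticForm F V) (hQ : Nondeg Q) : Frm F V where
  σ := RingHom.id F
  B := fun u v => polar Q u v
  q := fun u => Q u
  ε := 1
  α := 1
  β := 0
  add_left u v w := polar_add_left Q u v w
  add_right u v w := polar_add_right Q u v w
  smul_left a u v := polar_smul_left Q a u v
  smul_right a u v := polar_smul_right Q a u v
  symm u v := by rw [RingHom.id_apply, one_mul, polar_comm]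
  q_add u v := by rw [Q_add, one_mul, zero_mul, add_zero]
  q_smul a u := by rw [QuadraticMap.map_smul, RingHom.id_apply]; rfl
  iso u hu := polar_self_of_sing hu
  nondeg u hu := hQ u hu
  adj w v hw h := ⟨- Q v, by
    rw [Q_add, QuadraticMap.map_smul, hw, polar_smul_right, polar_comm, h]
    simp⟩

/-- orthogonal rows -/
noncomputable def rowQ (Q : QuadraticForm F (ι → F)) (hQ : (polarBilin Q).Nondegenerate) :
    MRow (Cfsg.Omega F (⇑Q)) (omMat (⇑Q)) where
  f := frmQ Q (nondeg_of_nondegenerate hQ)
  ρ := (isometryHom Q).comp (Cfsg.Omega F (⇑Q)).subtype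
  coe x v := rfl
  inj := by
    intro x y h
    apply Subtype.ext
    exact isometryHom_injective Q h
  iso x := by
    have h : (isometryHom Q) x.1 ∈ O Q := by
      rw [← isometryHom_range]
      exact ⟨x.1, rfl⟩
    exact ⟨fun u v => polar_map h u v, fun u => h u⟩
  perf S hS hS2 := by
    have h1 : S ≤ O Q := fun g hg v => (hS g hg).q v
    have h2 : S ≤ ⁅O Q, O Q⁆ := by
      rw [← hS2]
      exact Subgroup.commutator_mono h1 h1
    rw [MonoidHom.range_comp, Subgroup.range_subtype, map_Omega]
    exact h2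

theorem odd_row : StOOdd := by
  intro F _ _ m hF
  have h2 : (2 : F) ≠ 0 := by
    intro h
    have h3 : ringChar F = 2 := by
      have : (2 : ℕ) = (2 : ℕ) := rfl
      exact (CharP.ringChar_of_prime_eq_zero Nat.prime_two (by exact_mod_cast h))
    have h4 := FiniteField.even_card_iff_char_two.1 h3
    have := Nat.odd_iff.1 hF
    omega
  have h := rowQ (quadOdd m F) (quadOdd_nondegenerate h2)
  rw [coe_quadOdd] at h
  exact ⟨h⟩

theorem plus_row : StOPlus := by
  intro F _ _ m
  have h := rowQ (quadPlus m F) quadPlus_nondegenerate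
  rw [coe_quadPlus] at h
  exact ⟨h⟩

theorem minus_row : StOMinus := by
  intro F _ _ m a b hab
  have h := rowQ (quadMinus m F a b) (quadMinus_nondegenerate hab)
  rw [coe_quadMinus] at h
  exact ⟨h⟩

end Orth

section Unitary

variable {F : Type} [Field F] [Fintype F] {q n : ℕ}

/-- the hermitian form -/
def frmH (hF : Fintype.card F = q ^ 2) : Frm F (Fin n → F) where
  σ := (conj hF).toRingHom
  B := fun u v => hermForm n F q u v
  q := fun u => hermForm n F q u u
  ε := 1
  α := 1
  β := 1
  add_left u v w := herm_add_left u v w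
  add_right u v w := herm_add_right hF u v w
  smul_left a u v := herm_smul_left a u v
  smul_right a u v := herm_smul_right a u v
  symm u v := by
    rw [one_mul]
    exact herm_swap hF u v
  q_add u v := by
    rw [herm_add_left, herm_add_right hF, herm_add_right hF]
    ring
  q_smul a u := by
    rw [herm_smul_left, herm_smul_right]
    change a * (a ^ q * _) = a * a ^ q * _
    ring
  iso u hu := hu
  nondeg u hu := herm_nondeg hF hu
  adj w v hw h := by
    have h1 : (- hermForm n F q v v) ^ q = - hermForm n F q v v := by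
      rw [neg_pow_q hF, herm_self_pow hF]
    obtain ⟨c, hc⟩ := exists_trace_eq hF h1
    refine ⟨c, ?_⟩
    have h2 : hermForm n F q v w = 1 := by rw [herm_swap hF, h, one_pow]
    rw [herm_add_left, herm_add_right hF, herm_add_right hF, herm_smul_left, herm_smul_left, herm_smul_right, herm_smul_right,
      hw, h, h2]
    linear_combination hc

theorem su_row : StSU := by
  intro F _ _ n q hF
  have hinj : Function.Injective ((glEquiv (Fin n) F).toMonoidHom.comp
      ((Matrix.SpecialLinearGroup.toGL (n := Fin n) (R := F)).comp (Cfsg.SU n F q).subtype)) := by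
    intro x y h
    have h1 := (glEquiv (Fin n) F).injective h
    have h2 := congrArg (fun g : GL (Fin n) F => (g : Matrix (Fin n) (Fin n) F)) h1
    exact Subtype.ext (Subtype.ext h2)
  refine ⟨⟨frmH hF, (glEquiv (Fin n) F).toMonoidHom.comp
      ((Matrix.SpecialLinearGroup.toGL (n := Fin n) (R := F)).comp (Cfsg.SU n F q).subtype), fun x v => rfl, hinj, ?_, ?_⟩⟩
  · intro x
    have h := (mem_SU_iff x.1).1 x.2
    exact ⟨fun u v => h u v, fun u => h u u⟩
  · intro S hS hS2 g hg
    have h1 : S ≤ (LinearEquiv.det : ((Fin n → F) ≃ₗ[F] (Fin n → F)) →* Fˣ).ker := by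
      rw [← hS2, Subgroup.commutator_le]
      intro a _ b _
      rw [MonoidHom.mem_ker, map_commutatorElement, commutatorElement_eq_one_iff_mul_comm, mul_comm]
    have h2 := h1 hg
    have h3 : ((glEquiv (Fin n) F).symm g : GL (Fin n) F).det = 1 := by
      have h4 : LinearEquiv.det (glEquiv (Fin n) F ((glEquiv (Fin n) F).symm g)) = 1 := by
        rw [MulEquiv.apply_symm_apply]; exact h2
      rw [← h4]
      apply Units.ext
      rw [LinearEquiv.coe_det]
      exact (LinearMap.det_toLin' _).symm
    let G : Matrix.SpecialLinearGroup (Fin n) F := ⟨((glEquiv (Fin n) F).symm g : GL (Fin n) F).1, congrArg Units.val h3⟩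
    have hG : ∀ v, (G : Matrix (Fin n) (Fin n) F) *ᵥ v = g v := by
      intro v
      change glEquiv (Fin n) F ((glEquiv (Fin n) F).symm g) v = g v
      rw [MulEquiv.apply_symm_apply]
    have hG2 : G ∈ Cfsg.SU n F q := by
      rw [mem_SU_iff]
      intro u v
      rw [hG, hG]
      exact (hS g hg).B u v
    refine ⟨⟨G, hG2⟩, ?_⟩
    apply LinearEquiv.ext
    intro v
    exact hG v

end Unitary

section Sympl

variable {F : Type} [Field F] {m : ℕ}

/-- the symplectic form -/
def frmS (F : Type) [Field F] (m : ℕ) : Frm F (Fin m ⊕ Fin m → F) where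
  σ := RingHom.id F
  B := fun u v => ∑ i : Fin m, (u (.inl i) * v (.inr i) - u (.inr i) * v (.inl i))
  q := fun _ => 0
  ε := -1
  α := 0
  β := 0
  add_left u v w := by
    rw [← Finset.sum_add_distrib]
    exact Finset.sum_congr rfl fun i _ => by simp only [Pi.add_apply]; ring
  add_right u v w := by
    rw [← Finset.sum_add_distrib]
    exact Finset.sum_congr rfl fun i _ => by simp only [Pi.add_apply]; ring
  smul_left a u v := by
    rw [Finset.mul_sum]
    exact Finset.sum_congr rfl fun i _ => by simp only [Pi.smul_apply, smul_eq_mul]; ring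
  smul_right a u v := by
    rw [Finset.mul_sum]
    exact Finset.sum_congr rfl fun i _ => by simp only [Pi.smul_apply, smul_eq_mul, RingHom.id_apply]; ring
  symm u v := by
    rw [RingHom.id_apply, Finset.mul_sum]
    exact Finset.sum_congr rfl fun i _ => by ring
  q_add u v := by ring
  q_smul a u := by ring
  iso u _ := Finset.sum_eq_zero fun i _ => by ring
  nondeg u hu := by
    funext j
    rcases j with j | j
    · have := hu (Pi.single (.inr j) 1)
      rw [Finset.sum_eq_single j] at this
      · simpa using this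
      · intro i _ hi
        rw [Pi.single_eq_of_ne (by simp [hi]), Pi.single_eq_of_ne (by simp)]
        ring
      · intro h; exact absurd (Finset.mem_univ j) h
    · have := hu (Pi.single (.inl j) 1)
      rw [Finset.sum_eq_single j] at this
      · simpa using this
      · intro i _ hi
        rw [Pi.single_eq_of_ne (by simp), Pi.single_eq_of_ne (by simp [hi])]
        ring
      · intro h; exact absurd (Finset.mem_univ j) h
  adj _ _ _ _ := ⟨0, rfl⟩

theorem B_frmS (u v : Fin m ⊕ Fin m → F) : (frmS F m).B u v = - (u ⬝ᵥ (Matrix.J (Fin m) F *ᵥ v)) := by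
  change ∑ i : Fin m, (u (.inl i) * v (.inr i) - u (.inr i) * v (.inl i)) = _
  rw [Matrix.J, dotProduct, Fintype.sum_sum_type, Matrix.fromBlocks_mulVec]
  simp only [Sum.elim_inl, Sum.elim_inr, Matrix.zero_mulVec, zero_add, add_zero, Matrix.one_mulVec, Matrix.neg_mulVec,
    Pi.neg_apply, Function.comp, mul_neg]
  rw [Finset.sum_sub_distrib, Finset.sum_neg_distrib]
  ring

theorem mem_sp_iff (A : Matrix (Fin m ⊕ Fin m) (Fin m ⊕ Fin m) F) :
    A ∈ Matrix.symplecticGroup (Fin m) F ↔ ∀ u v, (frmS F m).B (A *ᵥ u) (A *ᵥ v) = (frmS F m).B u v := by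
  rw [SymplecticGroup.mem_iff']
  have key : ∀ u v, (frmS F m).B (A *ᵥ u) (A *ᵥ v) = - (u ⬝ᵥ ((Aᵀ * Matrix.J (Fin m) F * A) *ᵥ v)) := by
    intro u v
    rw [B_frmS, ← Matrix.vecMul_transpose, ← Matrix.dotProduct_mulVec, Matrix.mulVec_mulVec, Matrix.mulVec_mulVec]
  constructor
  · intro h u v
    rw [key, h, B_frmS]
  · intro h
    ext i j
    have h1 := h (Pi.single i 1) (Pi.single j 1)
    rw [key, B_frmS, neg_inj] at h1
    simpa using h1

theorem sp_row : StSp := by
  intro F _ _ m
  have hinj : Function.Injective ((glEquiv (Fin m ⊕ Fin m) F).toMonoidHom.comp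
      (MonoidHom.toHomUnits (Matrix.symplecticGroup (Fin m) F).subtype)) := by
    intro x y h
    have h1 := (glEquiv (Fin m ⊕ Fin m) F).injective h
    have h2 := congrArg (fun g : GL (Fin m ⊕ Fin m) F => (g : Matrix (Fin m ⊕ Fin m) (Fin m ⊕ Fin m) F)) h1
    exact Subtype.ext h2
  refine ⟨⟨frmS F m, (glEquiv (Fin m ⊕ Fin m) F).toMonoidHom.comp
      (MonoidHom.toHomUnits (Matrix.symplecticGroup (Fin m) F).subtype), fun x v => rfl, hinj, ?_, ?_⟩⟩
  · intro x
    have h := (mem_sp_iff x.1).1 x.2
    exact ⟨fun u v => h u v, fun u => rfl⟩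
  · intro S hS _ g hg
    have hG : ∀ v, ((glEquiv (Fin m ⊕ Fin m) F).symm g : GL (Fin m ⊕ Fin m) F).1 *ᵥ v = g v := by
      intro v
      change glEquiv (Fin m ⊕ Fin m) F ((glEquiv (Fin m ⊕ Fin m) F).symm g) v = g v
      rw [MulEquiv.apply_symm_apply]
    have hG2 : ((glEquiv (Fin m ⊕ Fin m) F).symm g : GL (Fin m ⊕ Fin m) F).1 ∈ Matrix.symplecticGroup (Fin m) F := by
      rw [mem_sp_iff]
      intro u v
      rw [hG, hG]
      exact (hS g hg).B u v
    refine ⟨⟨_, hG2⟩, ?_⟩
    apply LinearEquiv.ext
    intro v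
    exact hG v

end Sympl

end Cfsg.Agent.H375.FP
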